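import Mathlib

/-!
# Scott's lemma on triples of generators, in the form of a bound on numbers of fixed vectors

Let `x y z = 1` generate a group acting on a finite abelian group `V`, and let some element of the group have no
non-zero fixed vector.  Then the product of the numbers of fixed vectors of `x`, `y` and `z` is at most `|V|`.
-/

set_option autoImplicit false

namespace Cfsg.Agent.Lib.Compute.M23Tri

section

variable {G V : Type*} [Group G] [AddCommGroup V]

/-- The map `v ↦ t v - v`. -/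
def cm (ρ : G →* AddMonoid.End V) (t : G) : V →+ V :=
  AddMonoidHom.mk' (fun v => ρ t v - v) (by
    intro a b
    simp only [map_add]
    abel)

theorem cm_apply (ρ : G →* AddMonoid.End V) (t : G) (v : V) : cm ρ t v = ρ t v - v := rfl

theorem mem_ker_cm (ρ : G →* AddMonoid.End V) (t : G) (v : V) : v ∈ (cm ρ t).ker ↔ ρ t v = v := by
  rw [AddMonoidHom.mem_ker, cm_apply, sub_eq_zero]

theorem rho_mul (ρ : G →* AddMonoid.End V) (a b : G) (v : V) : ρ (a * b) v = ρ a (ρ b v) := by
  rw [map_mul]
  rfl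

theorem rho_one (ρ : G →* AddMonoid.End V) (v : V) : ρ 1 v = v := by
  rw [map_one]
  rfl

theorem rho_inv_self (ρ : G →* AddMonoid.End V) (a : G) (v : V) : ρ a (ρ a⁻¹ v) = v := by
  rw [← rho_mul, mul_inv_cancel, rho_one]

theorem rho_inv_self' (ρ : G →* AddMonoid.End V) (a : G) (v : V) : ρ a⁻¹ (ρ a v) = v := by
  rw [← rho_mul, inv_mul_cancel, rho_one]

/-- The elements with `(t - 1) V` inside a subgroup form a subgroup. -/
theorem cm_mem_of_closure (ρ : G →* AddMonoid.End V) (W : AddSubgroup V) (s : Set G)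
    (hs : ∀ t ∈ s, ∀ v, cm ρ t v ∈ W) : ∀ t ∈ Subgroup.closure s, ∀ v, cm ρ t v ∈ W := by
  intro t ht
  induction ht using Subgroup.closure_induction with
  | mem t ht => exact hs t ht
  | one =>
    intro v
    rw [cm_apply, rho_one, sub_self]
    exact W.zero_mem
  | mul a b _ _ ha hb =>
    intro v
    have e : cm ρ (a * b) v = cm ρ a (ρ b v) + cm ρ b v := by
      simp only [cm_apply, rho_mul]
      abel
    rw [e]
    exact W.add_mem (ha _) (hb _)
  | inv a _ ha =>
    intro v
    have e : cm ρ a⁻¹ v = - cm ρ a (ρ a⁻¹ v) := by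
      simp only [cm_apply, rho_inv_self]
      abel
    rw [e]
    exact W.neg_mem (ha _)

/-- The elements fixing a vector form a subgroup. -/
theorem fix_of_closure (ρ : G →* AddMonoid.End V) (v : V) (s : Set G) (hs : ∀ t ∈ s, ρ t v = v) :
    ∀ t ∈ Subgroup.closure s, ρ t v = v := by
  intro t ht
  induction ht using Subgroup.closure_induction with
  | mem t ht => exact hs t ht
  | one => exact rho_one ρ v
  | mul a b _ _ ha hb => rw [rho_mul, hb, ha]
  | inv a _ ha =>
    have h := rho_inv_self' ρ a v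
    rwa [ha] at h

variable [Finite V]

/-- Scott's lemma. -/
theorem scott (ρ : G →* AddMonoid.End V) (x y z g : G) (hxyz : x * y * z = 1)
    (hgen : Subgroup.closure ({x, y} : Set G) = ⊤) (hg : ∀ v, ρ g v = v → v = 0) :
    Nat.card (cm ρ x).ker * Nat.card (cm ρ y).ker * Nat.card (cm ρ z).ker ≤ Nat.card V := by
  classical
  -- the domain
  let Φ : ↥(cm ρ x).range × ↥(cm ρ y).range × ↥(cm ρ z).range →+ V :=
    (cm ρ x).range.subtype.coprod
      ((AddMonoidHom.comp (ρ x) (cm ρ y).range.subtype).coprod (AddMonoidHom.comp (ρ (x * y)) (cm ρ z).range.subtype))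
  have hΦ : ∀ (a : ↥(cm ρ x).range) (b : ↥(cm ρ y).range) (c : ↥(cm ρ z).range),
      Φ (a, b, c) = (a : V) + (ρ x (b : V) + ρ (x * y) (c : V)) := fun _ _ _ => rfl
  -- surjectivity
  have hx : ∀ v, cm ρ x v ∈ Φ.range := by
    intro v
    exact ⟨(⟨_, v, rfl⟩, 0, 0), by rw [hΦ]; simp⟩
  have hy : ∀ v, cm ρ y v ∈ Φ.range := by
    intro v
    have h1 : ρ x (cm ρ y v) ∈ Φ.range := ⟨(0, ⟨_, v, rfl⟩, 0), by rw [hΦ]; simp⟩
    have e : cm ρ y v = ρ x (cm ρ y v) - cm ρ x (cm ρ y v) := by
      rw [cm_apply ρ x]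
      abel
    rw [e]
    exact Φ.range.sub_mem h1 (hx _)
  have hall : ∀ t, ∀ v, cm ρ t v ∈ Φ.range := by
    intro t
    refine cm_mem_of_closure ρ Φ.range ({x, y} : Set G) ?_ t (by rw [hgen]; trivial)
    rintro t (rfl | rfl)
    · exact hx
    · exact hy
  have hinj : Function.Injective (cm ρ g) := by
    intro a b hab
    rw [cm_apply, cm_apply] at hab
    have h1 : ρ g (a - b) = a - b := by
      rw [map_sub]
      have h2 : ρ g a - ρ g b - (a - b) = 0 := by
        have : ρ g a - ρ g b - (a - b) = (ρ g a - a) - (ρ g b - b) := by abel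
        rw [this, hab, sub_self]
      exact sub_eq_zero.1 h2
    exact sub_eq_zero.1 (hg _ h1)
  have hsurjg : Function.Surjective (cm ρ g) := Finite.injective_iff_surjective.1 hinj
  have hsurj : Function.Surjective Φ := by
    intro u
    obtain ⟨v, rfl⟩ := hsurjg u
    exact hall g v
  -- the injection
  let δ : V →+ ↥(cm ρ x).range × ↥(cm ρ y).range × ↥(cm ρ z).range :=
    (cm ρ x).rangeRestrict.prod ((cm ρ y).rangeRestrict.prod (cm ρ z).rangeRestrict)
  have hδ1 : ∀ v, ((δ v).1 : V) = cm ρ x v := fun _ => rfl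
  have hδ2 : ∀ v, ((δ v).2.1 : V) = cm ρ y v := fun _ => rfl
  have hδ3 : ∀ v, ((δ v).2.2 : V) = cm ρ z v := fun _ => rfl
  have hΦδ : ∀ v, Φ (δ v) = 0 := by
    intro v
    have h : Φ (δ v) = ((δ v).1 : V) + (ρ x ((δ v).2.1 : V) + ρ (x * y) ((δ v).2.2 : V)) := rfl
    rw [h, hδ1, hδ2, hδ3]
    simp only [cm_apply, map_sub]
    rw [← rho_mul, ← rho_mul, hxyz, rho_one]
    abel
  have hδinj : Function.Injective δ := by
    rw [injective_iff_map_eq_zero]
    intro v hv
    have h1 : cm ρ x v = 0 := by rw [← hδ1, hv]; rfl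
    have h2 : cm ρ y v = 0 := by rw [← hδ2, hv]; rfl
    rw [cm_apply, sub_eq_zero] at h1 h2
    refine hg v (fix_of_closure ρ v ({x, y} : Set G) ?_ g (by rw [hgen]; trivial))
    rintro t (rfl | rfl)
    · exact h1
    · exact h2
  -- the count
  let s : V → ↥(cm ρ x).range × ↥(cm ρ y).range × ↥(cm ρ z).range := Function.surjInv hsurj
  have hs : ∀ u, Φ (s u) = u := Function.surjInv_eq hsurj
  let m : V × V → ↥(cm ρ x).range × ↥(cm ρ y).range × ↥(cm ρ z).range := fun p => δ p.1 + s p.2
  have hm : Function.Injective m := by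
    rintro ⟨a, b⟩ ⟨c, d⟩ h
    have h' : δ a + s b = δ c + s d := h
    have h1 := congrArg Φ h'
    rw [map_add, map_add, hΦδ, hΦδ, hs, hs, zero_add, zero_add] at h1
    subst h1
    have h2 := add_right_cancel h'
    rw [hδinj h2]
  have hc := Nat.card_le_card_of_injective m hm
  rw [Nat.card_prod, Nat.card_prod, Nat.card_prod] at hc
  have hk : ∀ t, Nat.card (cm ρ t).ker * Nat.card (cm ρ t).range = Nat.card V := by
    intro t
    rw [← AddSubgroup.index_ker, AddSubgroup.card_mul_index]
  have hx' := hk x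
  have hy' := hk y
  have hz' := hk z
  have hpos : 0 < Nat.card V := Nat.card_pos
  generalize Nat.card (cm ρ x).ker = a at *
  generalize Nat.card (cm ρ y).ker = b at *
  generalize Nat.card (cm ρ z).ker = c at *
  generalize Nat.card (cm ρ x).range = a' at *
  generalize Nat.card (cm ρ y).range = b' at *
  generalize Nat.card (cm ρ z).range = c' at *
  generalize Nat.card V = N at *
  have h3 : a * b * c * (N * N) ≤ N * (N * N) := by
    calc a * b * c * (N * N) ≤ a * b * c * (a' * (b' * c')) := Nat.mul_le_mul_left _ hc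
      _ = (a * a') * (b * b') * (c * c') := by ring
      _ = N * (N * N) := by rw [hx', hy', hz', mul_assoc]
  exact Nat.le_of_mul_le_mul_right h3 (Nat.mul_pos hpos hpos)

end

end Cfsg.Agent.Lib.Compute.M23Tri
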